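import Mathlib.AlgebraicGeometry.Morphisms.Flat
import Mathlib.AlgebraicGeometry.Morphisms.FinitePresentation

/-!
# Affine charts of a flat morphism locally of finite presentation

`exists_chart`: near every point of `X` there are arbitrarily small affine open charts `Spec A ⟶ X` over affine open
charts `Spec R ⟶ S`, with `R → A` flat and of finite presentation.
-/

set_option autoImplicit false
universe u
open CategoryTheory CategoryTheory.Limits AlgebraicGeometry

namespace Groth.Agent.Dual.H352.Chart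

variable {X S : Scheme.{u}} (f : X ⟶ S)

theorem exists_chart [Flat f] [LocallyOfFinitePresentation f] (x : X) (V : X.Opens) (hx : x ∈ V) :
    ∃ (R A : Type u) (_ : CommRing R) (_ : CommRing A) (_ : Algebra R A)
      (j : Spec (CommRingCat.of A) ⟶ X) (_ : IsOpenImmersion j)
      (i : Spec (CommRingCat.of R) ⟶ S) (_ : IsOpenImmersion i),
      Module.Flat R A ∧ Algebra.FinitePresentation R A ∧ x ∈ j.opensRange ∧ j.opensRange ≤ V ∧
      j ≫ f = Spec.map (CommRingCat.ofHom (algebraMap R A)) ≫ i := by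
  obtain ⟨_, ⟨W, hW, rfl⟩, hxW, -⟩ := S.isBasis_affineOpens.exists_subset_of_mem_open
    (Set.mem_univ (f x)) isOpen_univ
  have hxU : x ∈ V ⊓ f ⁻¹ᵁ W := ⟨hx, hxW⟩
  obtain ⟨_, ⟨U, hU, rfl⟩, hxU', hUV⟩ := X.isBasis_affineOpens.exists_subset_of_mem_open
    hxU (V ⊓ f ⁻¹ᵁ W).2
  have e : U ≤ f ⁻¹ᵁ W := fun y hy => (hUV hy).2
  have e' : U ≤ V := fun y hy => (hUV hy).1
  let _ : Algebra Γ(S, W) Γ(X, U) := (f.appLE W U e).hom.toAlgebra
  refine ⟨Γ(S, W), Γ(X, U), inferInstance, inferInstance, inferInstance, hU.fromSpec, inferInstance,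
    hW.fromSpec, inferInstance, ?_, ?_, ?_, ?_, ?_⟩
  · exact Flat.flat_appLE (f := f) hW hU e
  · exact LocallyOfFinitePresentation.finitePresentation_appLE (f := f) hW hU e
  · rw [hU.opensRange_fromSpec]
    exact hxU'
  · rw [hU.opensRange_fromSpec]
    exact e'
  · exact (hW.SpecMap_appLE_fromSpec f hU e).symm

end Groth.Agent.Dual.H352.Chart
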