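import Groth.Agent.PerfC.RelPerf
import Groth.Agent.Dcoh.StalkMod
import Groth.Agent.Flat2C.TorAmpRestr

/-!
# Relative flat amplitude and bounded above complexes of relatively flat modules

`f : X ⟶ S`.  If `K ∈ D(O_X)` has relative flat amplitude in `[a, b]` and is represented by a bounded above complex
`P` of `O_X`-modules flat over `S`, then `P` is exact below `a` and `P.opcycles a` is flat over `S`.

* `stalkOver f x`: the stalk functor with values in modules over the local ring of the base.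
* `exactAt_of_hasRelFlatAmplitudeIn`, `isFlatOver_opcycles`.
* `exists_uniform`: `X` compact and `LocHasFiniteRelTorDim f K`: one `a` for all of `X`.
-/

set_option autoImplicit false
universe u
open CategoryTheory CategoryTheory.Limits AlgebraicGeometry
attribute [local instance] HasDerivedCategory.standard

namespace Groth.Agent.Dual.H352.RelOpc

open Groth.Agent.PerfC.RelAmp Groth.Agent.PerfC.RelPerf Groth.Agent.Dcoh.LocalD

variable {X S : Scheme.{u}} (f : X ⟶ S)

section Stalk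

/-- The stalk functor with values in modules over the local ring of the base. -/
noncomputable def stalkOver (x : X) : X.Modules ⥤ ModuleCat.{u} (S.presheaf.stalk (f x)) :=
  Dcoh.StalkMod.stalkMod x ⋙ ModuleCat.restrictScalars.{u} (f.stalkMap x).hom

instance (x : X) : (stalkOver f x).Additive :=
  inferInstanceAs (Dcoh.StalkMod.stalkMod x ⋙ ModuleCat.restrictScalars.{u} (f.stalkMap x).hom).Additive

instance (x : X) : PreservesFiniteLimits (stalkOver f x) := by
  have : PreservesFiniteLimits (ModuleCat.restrictScalars.{u} (f.stalkMap x).hom) := inferInstance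
  exact comp_preservesFiniteLimits _ _

instance (x : X) : PreservesFiniteColimits (stalkOver f x) := by
  have : PreservesFiniteColimits (ModuleCat.restrictScalars.{u} (f.stalkMap x).hom) := inferInstance
  exact comp_preservesFiniteColimits _ _

theorem flat_stalkOver_iff (M : X.Modules) (x : X) :
    Module.Flat (S.presheaf.stalk (f x)) ((stalkOver f x).obj M) ↔ FlatMod.IsFlatOverAt f M x := Iff.rfl

end Stalk

variable {f}

lemma exactAt_of_iso {A : Type*} [Category* A] [Abelian A] [HasDerivedCategory A]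
    {K L : CochainComplex A ℤ} (e : DerivedCategory.Q.obj K ≅ DerivedCategory.Q.obj L) (i : ℤ)
    (h : L.ExactAt i) : K.ExactAt i := by
  rw [HomologicalComplex.exactAt_iff_isZero_homology] at h ⊢
  have e' := (DerivedCategory.homologyFunctor A i).mapIso e
  have e1 := (DerivedCategory.homologyFunctorFactors A i).app K
  have e2 := (DerivedCategory.homologyFunctorFactors A i).app L
  exact h.of_iso (e1.symm ≪≫ e' ≪≫ e2)

theorem exactAt_of_hasRelFlatAmplitudeIn {K : DCoh.D X} {a b : ℤ} (hK : DCoh.HasRelFlatAmplitudeIn f a b K)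
    (P : CochainComplex X.Modules ℤ) (e : DerivedCategory.Q.obj P ≅ K) (i : ℤ) (hi : i < a) :
    P.ExactAt i := by
  obtain ⟨E, h1, -, ⟨e'⟩⟩ := hK
  exact exactAt_of_iso (e ≪≫ e'.symm) i (HomologicalComplex.ExactAt.of_isZero (h1 i (Or.inl hi)))

theorem isFlatOver_opcycles {K : DCoh.D X} {a b : ℤ} (hK : DCoh.HasRelFlatAmplitudeIn f a b K)
    (P : CochainComplex X.Modules ℤ) (b' : ℤ) (hP0 : ∀ i, b' < i → IsZero (P.X i))
    (hP : ∀ i, FlatMod.IsFlatOver f (P.X i)) (e : DerivedCategory.Q.obj P ≅ K) :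
    FlatMod.IsFlatOver f (P.opcycles a) := by
  intro x
  obtain ⟨E, h1, h2, ⟨e'⟩⟩ := hK
  let F := stalkOver f x
  let P' := (F.mapHomologicalComplex (ComplexShape.up ℤ)).obj P
  let E' := (F.mapHomologicalComplex (ComplexShape.up ℤ)).obj E
  have i1 : DerivedCategory.Q.obj P' ≅ DerivedCategory.Q.obj E' :=
    (F.mapDerivedCategoryFactors.app P).symm ≪≫ F.mapDerivedCategory.mapIso (e ≪≫ e'.symm) ≪≫
      F.mapDerivedCategoryFactors.app E
  obtain ⟨h, hha⟩ : ∃ h : ℤ, h + 1 = a := ⟨a - 1, by omega⟩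
  have hE : Module.Flat (S.presheaf.stalk (f x)) (Flat2C.TorAmpCone.Cok E' h a) := by
    have : Module.Flat (S.presheaf.stalk (f x)) (E'.X a) := h2 a x
    have h0 : IsZero (E'.X h) := F.map_isZero (h1 h (Or.inl (by omega)))
    have hs : Subsingleton (E'.X h) := ModuleCat.subsingleton_of_isZero h0
    have hr : LinearMap.range (E'.d h a).hom = ⊥ := by
      rw [LinearMap.range_eq_bot]
      ext x
      rw [Subsingleton.elim x 0, map_zero, map_zero]
    exact Module.Flat.of_linearEquiv (Submodule.quotEquivOfEqBot _ hr)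
  rw [← Flat2C.TorAmpRestr.flat_cok_iff_of_iso (max b b') P' E'
    (fun i hi => F.map_isZero (hP0 i (lt_of_le_of_lt (le_max_right _ _) hi)))
    (fun i hi => F.map_isZero (h1 i (Or.inr (lt_of_le_of_lt (le_max_left _ _) hi))))
    (fun i => hP i x) (fun i => h2 i x) i1 hha] at hE
  obtain ⟨e1⟩ := Flat2C.TorAmpRestr.nonempty_opcycles_equiv P' hha
  have e2 : P'.opcycles a ≅ F.obj (P.opcycles a) := (P.sc a).mapOpcyclesIso F
  rw [← flat_stalkOver_iff]
  exact Module.Flat.of_linearEquiv (e2.symm.toLinearEquiv ≪≫ₗ e1)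

theorem HasRelFlatAmplitudeIn.mono {K : DCoh.D X} {a b a' b' : ℤ} (hK : DCoh.HasRelFlatAmplitudeIn f a b K)
    (ha : a' ≤ a) (hb : b ≤ b') : DCoh.HasRelFlatAmplitudeIn f a' b' K := by
  obtain ⟨E, h1, h2, h3⟩ := hK
  exact ⟨E, fun i hi => h1 i (by omega), h2, h3⟩

theorem hasRelFlatAmplitudeIn_of_iso {K L : DCoh.D X} {a b : ℤ} (e : K ≅ L)
    (hK : DCoh.HasRelFlatAmplitudeIn f a b K) : DCoh.HasRelFlatAmplitudeIn f a b L := by
  obtain ⟨E, h1, h2, ⟨h3⟩⟩ := hK
  exact ⟨E, h1, h2, ⟨h3 ≪≫ e⟩⟩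

theorem locHasFiniteRelTorDim_of_iso {K L : DCoh.D X} (e : K ≅ L)
    (hK : DCoh.LocHasFiniteRelTorDim f K) : DCoh.LocHasFiniteRelTorDim f L := by
  rw [locHasFiniteRelTorDim_iff] at hK ⊢
  intro x
  obtain ⟨V, a, b, hx, h⟩ := hK x
  exact ⟨V, a, b, hx, hasRelFlatAmplitudeIn_of_iso ((DCoh.restrictD V.ι).mapIso e) h⟩

theorem locHasFiniteRelTorDim_restrict {U : Scheme.{u}} (j : U ⟶ X) [IsOpenImmersion j] {K : DCoh.D X}
    (hK : DCoh.LocHasFiniteRelTorDim f K) :
    DCoh.LocHasFiniteRelTorDim (j ≫ f) ((DCoh.restrictD j).obj K) := by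
  rw [locHasFiniteRelTorDim_iff] at hK ⊢
  intro x
  obtain ⟨V, a, b, hx, h⟩ := hK (j x)
  refine ⟨j ⁻¹ᵁ V, a, b, hx, ?_⟩
  have h1 := hasRelFlatAmplitudeIn_restrict (f := V.ι ≫ f) (j ∣_ V) h
  have w : (j ∣_ V) ≫ V.ι = (j ⁻¹ᵁ V).ι ≫ j := morphismRestrict_ι j V
  rw [← Category.assoc, w, Category.assoc] at h1
  exact hasRelFlatAmplitudeIn_of_iso ((restrictCompEq w).app K ≪≫ ((restrictComp (j ⁻¹ᵁ V).ι j).app K).symm) h1

/-- Relative flatness does not change by composition with an open immersion of the base. -/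
theorem hasRelFlatAmplitudeIn_comp_iff {T : Scheme.{u}} (g : X ⟶ S) (i : S ⟶ T) [IsOpenImmersion i]
    {a b : ℤ} {K : DCoh.D X} :
    DCoh.HasRelFlatAmplitudeIn (g ≫ i) a b K ↔ DCoh.HasRelFlatAmplitudeIn g a b K := by
  have h : ∀ M : X.Modules, FlatMod.IsFlatOver (g ≫ i) M ↔ FlatMod.IsFlatOver g M := fun M =>
    forall_congr' fun x => Ega3B.FlatRestrict.isFlatOverAt_comp_iff g i M x
  simp only [DCoh.HasRelFlatAmplitudeIn, h]

theorem locHasFiniteRelTorDim_comp_iff {T : Scheme.{u}} (g : X ⟶ S) (i : S ⟶ T) [IsOpenImmersion i]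
    {K : DCoh.D X} :
    DCoh.LocHasFiniteRelTorDim (g ≫ i) K ↔ DCoh.LocHasFiniteRelTorDim g K := by
  simp only [locHasFiniteRelTorDim_iff, ← Category.assoc, hasRelFlatAmplitudeIn_comp_iff]

/-- Restriction to an open of the source lying over an open of the base. -/
theorem locHasFiniteRelTorDim_restrict' {U T : Scheme.{u}} (j : U ⟶ X) [IsOpenImmersion j] (i : T ⟶ S)
    [IsOpenImmersion i] (g : U ⟶ T) (w : j ≫ f = g ≫ i) {K : DCoh.D X}
    (hK : DCoh.LocHasFiniteRelTorDim f K) :
    DCoh.LocHasFiniteRelTorDim g ((DCoh.restrictD j).obj K) := by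
  have h := locHasFiniteRelTorDim_restrict j hK
  rw [w, locHasFiniteRelTorDim_comp_iff] at h
  exact h

/-- On a compact scheme, a complex locally of finite relative tor dimension represented by a bounded above
complex `P` of relatively flat modules: for some `a`, `P` is exact below `a` and `P.opcycles a` is flat over the
base. -/
theorem exists_uniform [CompactSpace X] {K : DCoh.D X} (hK : DCoh.LocHasFiniteRelTorDim f K)
    (P : CochainComplex X.Modules ℤ) (b : ℤ) (hP0 : ∀ i, b < i → IsZero (P.X i))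
    (hP : ∀ i, FlatMod.IsFlatOver f (P.X i)) (e : DerivedCategory.Q.obj P ≅ K) :
    ∃ a : ℤ, (∀ i, i < a → P.ExactAt i) ∧ FlatMod.IsFlatOver f (P.opcycles a) := by
  rw [locHasFiniteRelTorDim_iff] at hK
  choose V a' b' hx h using hK
  obtain ⟨t, ht⟩ := CompactSpace.elim_nhds_subcover (fun x => (V x : Set X))
    (fun x => (V x).2.mem_nhds (hx x))
  obtain ⟨a, ha⟩ : ∃ a : ℤ, ∀ x ∈ t, a ≤ a' x := by
    rcases t.eq_empty_or_nonempty with rfl | ht'
    · exact ⟨0, by simp⟩
    · exact ⟨t.inf' ht' a', fun x hx => Finset.inf'_le _ hx⟩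
  refine ⟨a, fun i hi => ?_, fun x => ?_⟩
  · rw [HomologicalComplex.exactAt_iff_isZero_homology]
    refine Dcoh.StalkMod.isZero_of_subsingleton _ fun x => ?_
    have hxt : x ∈ (⋃ y ∈ t, (V y : Set X)) := by rw [ht]; trivial
    simp only [Set.mem_iUnion] at hxt
    obtain ⟨y, hy, hxy⟩ := hxt
    have h1 := exactAt_of_hasRelFlatAmplitudeIn (h y)
      (((Scheme.Modules.restrictFunctor (V y).ι).mapHomologicalComplex (ComplexShape.up ℤ)).obj P)
      ((QRestrict (V y).ι P).symm ≪≫ (DCoh.restrictD (V y).ι).mapIso e) i (lt_of_lt_of_le hi (ha y hy))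
    rw [HomologicalComplex.exactAt_iff_isZero_homology] at h1
    have h2 : IsZero ((P.homology i).restrict (V y).ι) :=
      h1.of_iso ((P.sc i).mapHomologyIso (Scheme.Modules.restrictFunctor (V y).ι)).symm
    have h3 := Dcoh.StalkMod.subsingleton_of_isZero h2 ⟨x, hxy⟩
    exact (Ega3B.FlatRestrict.stalkEquiv (V y).ι (P.homology i) ⟨x, hxy⟩).symm.toEquiv.subsingleton
  · have hxt : x ∈ (⋃ y ∈ t, (V y : Set X)) := by rw [ht]; trivial
    simp only [Set.mem_iUnion] at hxt
    obtain ⟨y, hy, hxy⟩ := hxt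
    have h1 := isFlatOver_opcycles (HasRelFlatAmplitudeIn.mono (h y) (ha y hy) le_rfl)
      (((Scheme.Modules.restrictFunctor (V y).ι).mapHomologicalComplex (ComplexShape.up ℤ)).obj P) b
      (fun i hi => (Scheme.Modules.restrictFunctor (V y).ι).map_isZero (hP0 i hi))
      (fun i v => (Ega3B.FlatRestrict.isFlatOverAt_restrict_iff_comp f (V y).ι _ v).mpr (hP i _))
      ((QRestrict (V y).ι P).symm ≪≫ (DCoh.restrictD (V y).ι).mapIso e)
    have e2 : HomologicalComplex.opcycles (((Scheme.Modules.restrictFunctor (V y).ι).mapHomologicalComplex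
        (ComplexShape.up ℤ)).obj P) a ≅ (P.opcycles a).restrict (V y).ι :=
      (P.sc a).mapOpcyclesIso (Scheme.Modules.restrictFunctor (V y).ι)
    have h2 := PerfC.RelFlat.isFlatOver_of_iso ((V y).ι ≫ f) e2 h1 ⟨x, hxy⟩
    exact (Ega3B.FlatRestrict.isFlatOverAt_restrict_iff_comp f (V y).ι _ ⟨x, hxy⟩).mp h2

end Groth.Agent.Dual.H352.RelOpc
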