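import Groth.Agent.LoccohB.TildeEta2
import Groth.Agent.LoccohB.ThetaT
import Groth.Agent.LoccohB.RelOmega

/-!
# Local criterion: `O ⟶ RHom(E, E)` is an isomorphism

If `X` has a basis of affine opens `Spec A` on which `E = w~` with `A = End(w)` and `Hom(w, w[n]) = 0` for `n ≠ 0`, then
the map `O ⟶ RHom(E, E)` adjoint to any isomorphism `O ⊗ᴸ E ≅ E` is an isomorphism.
-/

set_option autoImplicit false
universe u
open CategoryTheory CategoryTheory.Limits AlgebraicGeometry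
attribute [local instance] HasDerivedCategory.standard

namespace Groth.Agent.Dual.H352.EndoLocal

open Groth.Agent.LoccohB Groth.Agent.LoccohB.TildeEta Groth.Agent.LoccohB.ThetaT Groth.Agent.LoccohB.LTenUnit
  Groth.Agent.LoccohB.TensShriek Groth.Agent.LoccohB.LTen
open Groth.Agent.PerfA.Restrict (restrictD)

/-! ### Functors bijective on a Hom set -/

section Bij

universe v₁ v₂ v₃ u₁ u₂ u₃

variable {C : Type u₁} [Category.{v₁} C] {D : Type u₂} [Category.{v₂} D] {D' : Type u₃} [Category.{v₃} D']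

/-- `F` is bijective on `Hom(a, b)`. -/
def Bij (F : C ⥤ D) (a b : C) : Prop := Function.Bijective (fun g : a ⟶ b => F.map g)

lemma Bij.of_iso {F G : C ⥤ D} (e : F ≅ G) {a b : C} (h : Bij F a b) : Bij G a b := by
  have h1 : (fun g : a ⟶ b => G.map g) =
      (fun g : F.obj a ⟶ F.obj b => e.inv.app a ≫ g ≫ e.hom.app b) ∘ (fun g : a ⟶ b => F.map g) := by
    funext g
    simp
  unfold Bij
  rw [h1]
  refine Function.Bijective.comp ⟨fun g g' h2 => ?_, fun g => ⟨e.hom.app a ≫ g ≫ e.inv.app b, by simp⟩⟩ h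
  simpa using h2

lemma Bij.comp {F : C ⥤ D} {G : D ⥤ D'} {a b : C} (h : Bij F a b) (h' : Bij G (F.obj a) (F.obj b)) :
    Bij (F ⋙ G) a b := by
  change Function.Bijective ((fun g : F.obj a ⟶ F.obj b => G.map g) ∘ (fun g : a ⟶ b => F.map g))
  exact Function.Bijective.comp (show Function.Bijective (fun g : F.obj a ⟶ F.obj b => G.map g) from h')
    (show Function.Bijective (fun g : a ⟶ b => F.map g) from h)

lemma Bij.of_comp_left {F : C ⥤ D} {G : D ⥤ D'} {a b : C} (h : Bij (F ⋙ G) a b)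
    (h' : Bij G (F.obj a) (F.obj b)) : Bij F a b :=
  (Function.Bijective.of_comp_iff' (f := fun g : F.obj a ⟶ F.obj b => G.map g) h' _).1 h

lemma Bij.of_comp_right {F : C ⥤ D} {G : D ⥤ D'} {a b : C} (h : Bij (F ⋙ G) a b)
    (h' : Bij F a b) : Bij G (F.obj a) (F.obj b) :=
  (Function.Bijective.of_comp_iff (fun g : F.obj a ⟶ F.obj b => G.map g) h').1 h

lemma Bij.congr {F : C ⥤ D} {a b a' b' : C} (e : a ≅ a') (e' : b ≅ b') (h : Bij F a b) : Bij F a' b' := by
  have h1 : (fun g : a' ⟶ b' => F.map g) =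
      ((F.mapIso e).homCongr (F.mapIso e')) ∘ (fun g : a ⟶ b => F.map g) ∘ (e.homCongr e').symm := by
    funext g
    simp [Iso.homCongr]
  unfold Bij
  rw [h1]
  exact (Equiv.bijective _).comp
    ((show Function.Bijective (fun g : a ⟶ b => F.map g) from h).comp (Equiv.bijective _))

lemma Bij.of_full_faithful (F : C ⥤ D) [F.Full] [F.Faithful] (a b : C) : Bij F a b :=
  ⟨fun _ _ h => F.map_injective h, fun g => F.map_surjective g⟩

/-- A right adjoint is bijective on `Hom(a, -)` when the counit at `a` is an isomorphism. -/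
lemma Bij.of_counit {Ψ : D ⥤ C} {Φ : C ⥤ D} (adj : Ψ ⊣ Φ) (a b : C) (h : IsIso (adj.counit.app a)) :
    Bij Φ a b := by
  have h1 : (fun g : a ⟶ b => Φ.map g) =
      (adj.homEquiv (Φ.obj a) b) ∘ (fun g : a ⟶ b => adj.counit.app a ≫ g) := by
    funext g
    simp [Adjunction.homEquiv_unit]
  unfold Bij
  rw [h1]
  refine (adj.homEquiv (Φ.obj a) b).bijective.comp ⟨fun g g' h2 => (cancel_epi _).1 h2, fun g => ⟨inv (adj.counit.app a) ≫ g, by simp⟩⟩

lemma Bij.bijective_comp_homEquiv {F : C ⥤ D} {R : D ⥤ C} (adj : F ⊣ R) {P O : C} {E : D} (υ : F.obj O ≅ E)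
    (h : Bij F P O) : Function.Bijective (fun g : P ⟶ O => g ≫ adj.homEquiv O E υ.hom) := by
  have h1 : (fun g : P ⟶ O => g ≫ adj.homEquiv O E υ.hom) =
      adj.homEquiv P E ∘ (fun g : F.obj P ⟶ F.obj O => g ≫ υ.hom) ∘ (fun g : P ⟶ O => F.map g) := by
    funext g
    simp [Adjunction.homEquiv_naturality_left]
  rw [h1]
  exact (adj.homEquiv P E).bijective.comp (Function.Bijective.comp
    ⟨fun g g' h2 => (cancel_mono _).1 h2, fun g => ⟨g ≫ υ.inv, by simp⟩⟩ h)

end Bij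

/-! ### The algebraic part -/


section Alg

variable {A : Type u} [CommRing A]

/-- `w` has endomorphisms `A` and no other self-extensions. -/
def IsEndo (w : Dual.D A) : Prop :=
  Function.Bijective (fun a : A => a • 𝟙 w) ∧ ∀ n : ℤ, n ≠ 0 → Subsingleton (w ⟶ w⟦n⟧)

lemma IsEndo.of_iso {w w' : Dual.D A} (e : w ≅ w') (h : IsEndo w) : IsEndo w' := by
  refine ⟨?_, fun n hn => ?_⟩
  · have h1 : (fun a : A => a • 𝟙 w') = (fun g : w ⟶ w => e.inv ≫ g ≫ e.hom) ∘ (fun a : A => a • 𝟙 w) := by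
      funext a
      simp
    rw [h1]
    exact Function.Bijective.comp ⟨fun g g' h2 => by simpa using h2, fun g => ⟨e.hom ≫ g ≫ e.inv, by simp⟩⟩ h.1
  · have := h.2 n hn
    refine ⟨fun g g' => ?_⟩
    have h1 : e.hom ≫ g ≫ (e.inv)⟦n⟧' = e.hom ≫ g' ≫ (e.inv)⟦n⟧' := Subsingleton.elim _ _
    rw [cancel_epi] at h1
    exact (cancel_mono _).1 h1

lemma IsEndo.subsingleton_shift {w : Dual.D A} (h : IsEndo w) {p q : ℤ} (hpq : p ≠ q) :
    Subsingleton (w⟦p⟧ ⟶ w⟦q⟧) := by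
  have h1 := h.2 (q - p) (sub_ne_zero.2 hpq.symm)
  have e : (w⟦q⟧ : Dual.D A) ≅ w⟦q - p⟧⟦p⟧ := (CategoryTheory.shiftFunctorAdd' _ (q - p) p q (by omega)).app w
  refine ⟨fun g g' => ?_⟩
  obtain ⟨k, hk⟩ := (CategoryTheory.shiftFunctor (Dual.D A) p).map_surjective (g ≫ e.hom)
  obtain ⟨k', hk'⟩ := (CategoryTheory.shiftFunctor (Dual.D A) p).map_surjective (g' ≫ e.hom)
  rw [← cancel_mono e.hom, ← hk, ← hk', Subsingleton.elim k k']

lemma isEndo_inD : IsEndo (Dual.inD A A) :=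
  ⟨RelOmega.end_inD_bijective A, RelOmega.subsingleton_hom_inD A⟩

/-- `A[-n]` as a shift. -/
noncomputable def sgShift (n : ℤ) : DerivedCategory.Q.obj (sg A n) ≅ (Dual.inD A A)⟦-n⟧ :=
  DerivedCategory.Q.mapIso (sgIso n).symm ≪≫ (DerivedCategory.Q.commShiftIso (-n)).app _ ≪≫
    (CategoryTheory.shiftFunctor _ (-n)).mapIso (RelOmega.inDIso A).symm

/-- `- ⊗ᴸ P` is bijective on `Hom(A[-m], A)` when `P` has endomorphisms `A` and no other self-extensions. -/
theorem bij_lten (P : DRing.Cx A) [DRing.HasLTensorCx A P] (h : IsEndo (DRing.toD P)) (m : ℤ) :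
    Bij (DRing.LTensorCx A P) (DerivedCategory.Q.obj (sg A m)) (DerivedCategory.Q.obj (sg A 0)) := by
  by_cases hm : m = 0
  · subst hm
    have e1 : (Dual.inD A A : Dual.D A) ≅ DerivedCategory.Q.obj (sg A 0) := RelOmega.inDIso A
    have h1 : Function.Bijective (fun a : A => a • 𝟙 (DerivedCategory.Q.obj (sg A 0))) :=
      RelOmega.end_bijective_of_iso e1 (RelOmega.end_inD_bijective A)
    have e2 : DRing.toD P ≅ (DRing.LTensorCx A P).obj (DerivedCategory.Q.obj (sg A 0)) :=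
      (CategoryTheory.shiftFunctorZero' (Dual.D A) (-0) neg_zero).symm.app _ ≪≫ (ltenSg P 0).symm
    have h2 : Function.Bijective (fun a : A => a • 𝟙 ((DRing.LTensorCx A P).obj (DerivedCategory.Q.obj (sg A 0)))) :=
      RelOmega.end_bijective_of_iso e2 h.1
    refine (Function.Bijective.of_comp_iff _ h1).1 ?_
    convert h2 using 1
    funext a
    exact lten_map_smul P 0 a
  · have h1 := isEndo_inD.subsingleton_shift (A := A) (p := -m) (q := -0) (by omega)
    have h2 := h.subsingleton_shift (p := -m) (q := -0) (by omega)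
    have h3 : Subsingleton (DerivedCategory.Q.obj (sg A m) ⟶ DerivedCategory.Q.obj (sg A 0)) :=
      ((sgShift m).homCongr (sgShift 0)).subsingleton
    have h4 : Subsingleton ((DRing.LTensorCx A P).obj (DerivedCategory.Q.obj (sg A m)) ⟶
        (DRing.LTensorCx A P).obj (DerivedCategory.Q.obj (sg A 0))) :=
      ((ltenSg P m).homCongr (ltenSg P 0)).subsingleton
    exact ⟨fun _ _ _ => Subsingleton.elim _ _, fun g => ⟨(sgShift m).hom ≫ 0 ≫ (sgShift 0).inv, Subsingleton.elim _ _⟩⟩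

end Alg

/-! ### On a chart -/

section Geo

variable {A : Type u} [CommRing A]

/-- `- ⊗ᴸ w~` is bijective on `Hom(O[-m], O)` on `Spec A`. -/
theorem bij_ltR (G : CochainComplex (Spec (CommRingCat.of A)).Modules ℤ) {w : Dual.D A} (h : IsEndo w)
    (e : DerivedCategory.Q.obj G ≅ (tA A).obj w) (m : ℤ) :
    Bij (ltR G) ((tA A).obj (DerivedCategory.Q.obj (sg A m)))
      ((tA A).obj (DerivedCategory.Q.obj (sg A 0))) := by
  obtain ⟨P, hP, ⟨eP⟩⟩ := LTen.exists_kproj w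
  have := LTen.hasLTensorCx P
  obtain ⟨e2⟩ := thetaP P
  obtain ⟨e3⟩ := tAQ A
  have e4 : DerivedCategory.Q.obj G ≅ DerivedCategory.Q.obj (tP P) :=
    e ≪≫ (tA A).mapIso eP.symm ≪≫ e3.app P
  have h1 : Bij (DRing.LTensorCx A P ⋙ tA A) (DerivedCategory.Q.obj (sg A m))
      (DerivedCategory.Q.obj (sg A 0)) :=
    (bij_lten P (h.of_iso eP.symm) m).comp (Bij.of_full_faithful _ _ _)
  have h2 : Bij (tA A ⋙ ltR G) (DerivedCategory.Q.obj (sg A m)) (DerivedCategory.Q.obj (sg A 0)) :=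
    h1.of_iso (Functor.isoWhiskerLeft _ (ltRCongr e4) ≪≫ e2).symm
  exact h2.of_comp_right (Bij.of_full_faithful _ _ _)

variable {X : Scheme.{u}}

/-- `- ⊗ᴸ E` is bijective on `Hom(j_! O[-m], O)` for a chart `j` on which `E = w~`. -/
theorem bij_chart (E : CochainComplex X.Modules ℤ) [DCoh.HasLTensorCx E]
    (j : Spec (CommRingCat.of A) ⟶ X) [IsOpenImmersion j] {w : Dual.D A} (h : IsEndo w)
    (e : (restrictD j).obj (DCoh.toD X E) ≅ (tA A).obj w) (m : ℤ) :
    Bij (DCoh.LTensorCx E) ((PerfC.ExtZeroD.shriekD j).obj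
      ((DerivedCategory.singleFunctor (Spec (CommRingCat.of A)).Modules m).obj
        (Coh.structureModule (Spec (CommRingCat.of A))))) (DCoh.inD X (Coh.structureModule X)) := by
  obtain ⟨E₀, hE₀, ⟨eE⟩⟩ := exists_kflat E
  obtain ⟨α⟩ := resTenD j hE₀
  have β : DCoh.LTensorCx E ⋙ restrictD j ≅ restrictD j ⋙ ltR ((resCx j).obj E₀) :=
    Functor.isoWhiskerRight ((ltRIso E).symm ≪≫ ltRCongr eE) _ ≪≫ α
  refine Bij.of_comp_left (G := restrictD j) ?_
    (Bij.of_counit (PerfC.ExtZeroD.adjunction j) _ _ (isIso_counit_LTensorCx j E _))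
  refine Bij.of_iso β.symm (Bij.comp (Bij.of_counit (PerfC.ExtZeroD.adjunction j) _ _
    (PerfC.ExtZeroD.isIso_counit_app j _ (PerfC.ExtZeroD.supp_shriekD_subset_range j _))) ?_)
  have e5 : DerivedCategory.Q.obj ((resCx j).obj E₀) ≅ (tA A).obj w :=
    ((resQ j).app E₀).symm ≪≫ (restrictD j).mapIso eE.symm ≪≫ e
  exact (bij_ltR _ h e5 m).congr ((tASingle A m).symm ≪≫ PerfC.ExtZeroD.unitIso j _)
    ((tASingle A 0).symm ≪≫ restrictSingle j 0)

/-- **Local criterion** for `O ⟶ RHom(E, E)` to be an isomorphism. -/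
theorem isIso_homEquiv (E : CochainComplex X.Modules ℤ) [DCoh.HasLTensorCx E] [DCoh.HasRSheafHom E]
    (hB : ∀ (x : X) (V : X.Opens), x ∈ V → ∃ (A : Type u) (_ : CommRing A)
      (j : Spec (CommRingCat.of A) ⟶ X) (_ : IsOpenImmersion j), x ∈ j.opensRange ∧ j.opensRange ≤ V ∧
      ∃ w : Dual.D A, IsEndo w ∧ Nonempty ((restrictD j).obj (DCoh.toD X E) ≅ (tA A).obj w))
    (υ : (DCoh.LTensorCx E).obj (DCoh.inD X (Coh.structureModule X)) ≅ DCoh.toD X E) :
    IsIso (((DCoh.RSheafHomAdj E).homEquiv (DCoh.inD X (Coh.structureModule X))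
      (DCoh.toD X E)) υ.hom) := by
  let ι := Σ' (A : Type u) (_ : CommRing A) (j : Spec (CommRingCat.of A) ⟶ X) (_ : IsOpenImmersion j),
    ∃ w : Dual.D A, IsEndo w ∧ Nonempty ((restrictD j).obj (DCoh.toD X E) ≅ (tA A).obj w)
  let Y : ι → Scheme.{u} := fun i => letI := i.2.1; Spec (CommRingCat.of i.1)
  let j : ∀ i, Y i ⟶ X := fun i => i.2.2.1
  have hj : ∀ i, IsOpenImmersion (j i) := fun i => i.2.2.2.1
  refine Detect531.isIso_of_forall_bijective_shriek Y j (fun x V hx => ?_) _ (fun i m => ?_)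
  · obtain ⟨A, hA, j', hj', h1, h2, h3⟩ := hB x V hx
    exact ⟨⟨A, hA, j', hj', h3⟩, h1, h2⟩
  · obtain ⟨A, hA, j', hj', w, hw, ⟨e⟩⟩ := i
    exact (bij_chart E j' hw e m).bijective_comp_homEquiv (DCoh.RSheafHomAdj E) υ

end Geo

end Groth.Agent.Dual.H352.EndoLocal
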